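import Cfsg.Agent.Coprime.External
import Cfsg.Agent.ZStar.Theorem
import Mathlib.GroupTheory.GroupAction.Quotient
import Mathlib.Algebra.Order.Chebyshev

/-!
# A coprime automorphism fixing the centralizer of an involution

If `α` is a coprime automorphism of `G` fixing `C(τ)` element by element, every conjugate of `τ`
fixes exactly one coset of `F = C_G(α)`, and an `α`-invariant subgroup meeting the class `K` of `τ`
meets `K ∩ F`. Counting pairs of conjugates of `τ` exchanging the same two cosets gives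
`(n - 1) k (k - 1) ≤ (n - 2) k (k - 1)` when the action on the cosets is faithful, so `k = 1`,
and `τ` is isolated.
-/

set_option autoImplicit false

open scoped Classical

namespace CfsgLib.CoprimeInvolCentralizer

variable {G : Type*} [Group G] {α : MulAut G} {τ : G}

/-- The fixed subgroup of `α`. -/
def fixSub (α : MulAut G) : Subgroup G where
  carrier := {g | α g = g}
  one_mem' := map_one _
  mul_mem' := fun {a b} ha hb => by
    show α (a * b) = a * b
    rw [map_mul, ha, hb]
  inv_mem' := fun {a} ha => by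
    show α a⁻¹ = a⁻¹
    rw [map_inv, ha]

@[simp] theorem mem_fixSub {g : G} : g ∈ fixSub α ↔ α g = g := Iff.rfl

theorem smul_coe {H : Subgroup G} (g h : G) :
    g • (QuotientGroup.mk h : G ⧸ H) = QuotientGroup.mk (g * h) := rfl

/-- Iterating on a coset of a fixed element. -/
theorem pow_apply_eq {g c : G} (h : α g = g * c) (hc : α c = c) (m : ℕ) :
    (α ^ m) g = g * c ^ m := by
  induction m with
  | zero => simp
  | succ m ih =>
    rw [pow_succ', MulAut.mul_apply, ih, map_mul, map_pow, h, hc, pow_succ', mul_assoc]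

theorem mem_fixSub_of_fixed_quotient [Finite G] (hcop : (orderOf α).Coprime (Nat.card G)) {g : G}
    (h : g⁻¹ * α g ∈ fixSub α) : g ∈ fixSub α := by
  set c := g⁻¹ * α g with hc
  have hg : α g = g * c := by rw [hc]; group
  have h1 := pow_apply_eq hg h (orderOf α)
  rw [pow_orderOf_eq_one, MulAut.one_apply, left_eq_mul] at h1
  have hone : c = 1 := orderOf_eq_one_iff.mp
    (Nat.eq_one_of_dvd_coprimes hcop (orderOf_dvd_of_pow_eq_one h1) (orderOf_dvd_natCard c))
  rw [mem_fixSub, hg, hone, mul_one]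

variable (hC : Subgroup.centralizer ({τ} : Set G) ≤ fixSub α)

include hC

theorem tau_mem : τ ∈ fixSub α :=
  hC (Subgroup.mem_centralizer_singleton_iff.mpr rfl)

/-- A conjugate of `τ` lying in `F` is conjugate by an element of `F`. -/
theorem mem_of_conj_mem [Finite G] (hcop : (orderOf α).Coprime (Nat.card G)) {g : G}
    (h : g * τ * g⁻¹ ∈ fixSub α) : g ∈ fixSub α := by
  refine mem_fixSub_of_fixed_quotient hcop (hC (Subgroup.mem_centralizer_singleton_iff.mpr ?_))
  have e : α g * τ * (α g)⁻¹ = g * τ * g⁻¹ := by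
    have := h
    rw [mem_fixSub, map_mul, map_mul, map_inv, mem_fixSub.mp (tau_mem hC)] at this
    exact this
  calc g⁻¹ * α g * τ = g⁻¹ * (α g * τ * (α g)⁻¹) * α g := by group
    _ = τ * (g⁻¹ * α g) := by rw [e]; group

/-- A conjugate `g τ g⁻¹` fixes the coset `g F` and no other. -/
theorem smul_eq_iff [Finite G] (hcop : (orderOf α).Coprime (Nat.card G)) (g h : G) :
    (g * τ * g⁻¹) • (QuotientGroup.mk h : G ⧸ fixSub α) = QuotientGroup.mk h ↔
      (QuotientGroup.mk h : G ⧸ fixSub α) = QuotientGroup.mk g := by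
  rw [smul_coe, QuotientGroup.eq, QuotientGroup.eq]
  constructor
  · intro hm
    have hm' : (h⁻¹ * g) * τ * (h⁻¹ * g)⁻¹ ∈ fixSub α := by
      have := inv_mem hm
      convert this using 1
      group
    exact mem_of_conj_mem hC hcop hm'
  · intro hm
    have := inv_mem (mul_mem (mul_mem hm (tau_mem hC)) (inv_mem hm))
    convert this using 1
    group

variable [Finite G]

/-- An invariant subgroup containing a conjugate `t` of `τ` contains a conjugate of `t` in `F`. -/
theorem exists_conj_mem (hcop : (orderOf α).Coprime (Nat.card G)) (hτ : orderOf τ = 2)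
    (M : Subgroup G) (hM : ∀ x ∈ M, α x ∈ M) {t : G} (htM : t ∈ M) (ht : IsConj τ t) :
    ∃ m ∈ M, m * t * m⁻¹ ∈ fixSub α := by
  have hMα : ∀ a : Subgroup.zpowers α, ∀ x ∈ M, (a : MulAut G) x ∈ M := by
    intro a x hx
    obtain ⟨n, hn⟩ := (mem_powers_iff_mem_zpowers (x := α) (y := (a : MulAut G))).mpr a.2
    have key : ∀ j : ℕ, (α ^ j) x ∈ M := by
      intro j
      induction j with
      | zero => simpa using hx
      | succ j ih =>
        rw [pow_succ', MulAut.mul_apply]
        exact hM _ ih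
    rw [← hn]
    exact key n
  let φ : Subgroup.zpowers α →* MulAut M :=
    { toFun := fun a =>
        { toFun := fun x => ⟨(a : MulAut G) x, hMα a x x.2⟩
          invFun := fun x => ⟨((a⁻¹ : Subgroup.zpowers α) : MulAut G) x, hMα a⁻¹ x x.2⟩
          left_inv := fun x => Subtype.ext (by simp)
          right_inv := fun x => Subtype.ext (by simp)
          map_mul' := fun x y => Subtype.ext (by simp) }
      map_one' := by ext x; rfl
      map_mul' := fun a b => by ext x; rfl }
  haveI : Fact (Nat.Prime 2) := ⟨Nat.prime_two⟩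
  obtain ⟨P, hP⟩ := Coprime.exists_invariant_sylow_action φ (p := 2)
    (by
      rw [Nat.card_zpowers]
      exact hcop.coprime_dvd_right (Subgroup.card_subgroup_dvd_card M))
    (Or.inl (Coprime.isSolvable_zpowers α))
  obtain ⟨g, rfl⟩ := isConj_iff.mp ht
  set t' : M := ⟨g * τ * g⁻¹, htM⟩ with ht'
  have hord : orderOf (g * τ * g⁻¹) = 2 := by
    rw [← hτ]
    exact (MulAut.conj g).orderOf_eq τ
  have ht2 : IsPGroup 2 (Subgroup.zpowers t') := by
    refine IsPGroup.of_card (n := 1) ?_
    rw [Nat.card_zpowers, pow_one, ht', Subgroup.orderOf_mk, hord]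
  obtain ⟨Q, hQ⟩ := ht2.exists_le_sylow
  obtain ⟨m, hm⟩ := MulAction.exists_smul_eq M Q P
  have hvP : m * t' * m⁻¹ ∈ (P : Subgroup M) := by
    rw [← hm]
    exact ⟨t', hQ (Subgroup.mem_zpowers t'), by simp⟩
  refine ⟨m, m.2, ?_⟩
  set S := (P : Subgroup M).map M.subtype with hS
  have hS2 : IsPGroup 2 S := P.isPGroup'.map _
  set g' : G := (m : G) * g with hg'
  have hv : ((m * t' * m⁻¹ : M) : G) = g' * τ * g'⁻¹ := by
    simp only [Subgroup.coe_mul, Subgroup.coe_inv, ht', hg']
    group
  have hvS : g' * τ * g'⁻¹ ∈ S := ⟨_, hvP, hv⟩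
  -- the coset action of `v` has a single fixed point, so the number of cosets is odd
  have hone : ∀ z : G ⧸ fixSub α, (g' * τ * g'⁻¹) • z = z ↔ z = QuotientGroup.mk g' := fun z => by
    induction z using QuotientGroup.induction_on with
    | _ h => exact smul_eq_iff hC hcop g' h
  have hv2 : IsPGroup 2 (Subgroup.zpowers (g' * τ * g'⁻¹)) := by
    refine IsPGroup.of_card (n := 1) ?_
    rw [Nat.card_zpowers, pow_one, ← hτ]
    exact (MulAut.conj g').orderOf_eq τ
  have hodd : ¬ 2 ∣ Nat.card (G ⧸ fixSub α) := by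
    have hmod := hv2.card_modEq_card_fixedPoints (G ⧸ fixSub α)
    have hfix : MulAction.fixedPoints (Subgroup.zpowers (g' * τ * g'⁻¹)) (G ⧸ fixSub α) =
        {QuotientGroup.mk g'} := by
      ext z
      rw [MulAction.mem_fixedPoints, Set.mem_singleton_iff, ← hone z]
      constructor
      · exact fun h => h ⟨_, Subgroup.mem_zpowers _⟩
      · rintro h ⟨_, n, rfl⟩
        show (g' * τ * g'⁻¹) ^ n • z = z
        exact (MulAction.stabilizer G z).zpow_mem h n
    rw [hfix, Nat.card_coe_set_eq, Set.ncard_singleton] at hmod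
    unfold Nat.ModEq at hmod
    omega
  obtain ⟨d, hd⟩ := hS2.nonempty_fixed_point_of_prime_not_dvd_card (G ⧸ fixSub α) hodd
  have hd1 : d = QuotientGroup.mk g' := (hone d).mp (hd ⟨_, hvS⟩)
  -- the image of `v` also fixes `d`
  have hαv : α g' * τ * (α g')⁻¹ ∈ S := by
    obtain ⟨y, hy, hyv⟩ := hvS
    refine ⟨φ ⟨α, Subgroup.mem_zpowers α⟩ y, hP _ y hy, ?_⟩
    show α (y : G) = _
    rw [show (y : G) = g' * τ * g'⁻¹ from hyv, map_mul, map_mul, map_inv,
      mem_fixSub.mp (tau_mem hC)]
  have hd2 : d = QuotientGroup.mk (α g') := by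
    have hfx := hd ⟨_, hαv⟩
    rw [hd1] at hfx ⊢
    exact (smul_eq_iff hC hcop (α g') g').mp hfx
  rw [hd1, QuotientGroup.eq] at hd2
  have hgF : g' ∈ fixSub α := mem_fixSub_of_fixed_quotient hcop hd2
  have := mul_mem (mul_mem hgF (tau_mem hC)) (inv_mem hgF)
  convert this using 1
  rw [hg']
  group

/-- With faithful action on the cosets, `τ` is its only conjugate fixed by `α`. -/
theorem conj_eq_of_mem (hcop : (orderOf α).Coprime (Nat.card G)) (hτ : orderOf τ = 2)
    (hcore : (fixSub α).normalCore = ⊥) (htop : fixSub α ≠ ⊤) {u : G} (hu : IsConj τ u)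
    (huF : u ∈ fixSub α) : u = τ := by
  haveI : Fintype G := Fintype.ofFinite G
  set F := fixSub α with hF
  haveI : Fintype (G ⧸ F) := Fintype.ofFinite _
  let a : G ⧸ F := QuotientGroup.mk 1
  have hFa : ∀ g : G, g ∈ F ↔ g • a = a := fun g => by
    show _ ↔ g • (QuotientGroup.mk 1 : G ⧸ F) = QuotientGroup.mk 1
    rw [smul_coe, mul_one, QuotientGroup.eq, mul_one,
      inv_mem_iff]
  let K : Finset G := Finset.univ.filter fun t => IsConj τ t
  have hK : ∀ t, t ∈ K ↔ IsConj τ t := fun t => by simp [K]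
  have hKinv : ∀ t ∈ K, t * t = 1 := fun t ht => by
    obtain ⟨g, rfl⟩ := isConj_iff.mp ((hK t).mp ht)
    have : τ * τ = 1 := by rw [← sq, ← hτ, pow_orderOf_eq_one]
    calc g * τ * g⁻¹ * (g * τ * g⁻¹) = g * (τ * τ) * g⁻¹ := by group
      _ = 1 := by rw [this]; group
  have hKconj : ∀ (g : G), ∀ t ∈ K, g * t * g⁻¹ ∈ K := fun g t ht =>
    (hK _).mpr (((hK t).mp ht).trans (isConj_iff.mpr ⟨g, rfl⟩))
  let K₀ : Finset G := K.filter fun t => t ∈ F
  set k := K₀.card with hk
  have hτK₀ : τ ∈ K₀ := Finset.mem_filter.mpr ⟨(hK τ).mpr (IsConj.refl τ), tau_mem hC⟩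
  have hpoint : ∀ t ∈ K, ∀ z w : G ⧸ F, t • z = z → t • w = w → z = w := by
    intro t ht z w hz hw
    obtain ⟨g, rfl⟩ := isConj_iff.mp ((hK t).mp ht)
    induction z using QuotientGroup.induction_on with
    | _ z₀ =>
      induction w using QuotientGroup.induction_on with
      | _ w₀ =>
        rw [(smul_eq_iff hC hcop g z₀).mp hz, (smul_eq_iff hC hcop g w₀).mp hw]
  have hexists : ∀ t ∈ K, ∃ z : G ⧸ F, t • z = z := fun t ht => by
    obtain ⟨g, rfl⟩ := isConj_iff.mp ((hK t).mp ht)
    exact ⟨QuotientGroup.mk g, (smul_eq_iff hC hcop g g).mpr rfl⟩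
  set n := Fintype.card (G ⧸ F) with hn
  have hn2 : 2 ≤ n := by
    by_contra hlt
    apply htop
    rw [← Subgroup.index_eq_one]
    have : 0 < n := Fintype.card_pos
    rw [Subgroup.index, Nat.card_eq_fintype_card, ← hn]
    omega
  -- each coset is fixed by `k` conjugates
  have hfib : ∀ z : G ⧸ F, (K.filter fun t => t • z = z).card = k := by
    intro z
    induction z using QuotientGroup.induction_on with
    | _ g =>
    refine Finset.card_bij (fun t _ => g⁻¹ * t * g) ?_ ?_ ?_
    · intro t ht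
      rw [Finset.mem_filter] at ht
      refine Finset.mem_filter.mpr ⟨by simpa using hKconj g⁻¹ t ht.1, ?_⟩
      have := ht.2
      rw [smul_coe, QuotientGroup.eq] at this
      have := inv_mem this
      convert this using 1
      group
    · intro t _ t' _ h
      exact mul_left_cancel (mul_right_cancel h)
    · intro v hv
      rw [Finset.mem_filter] at hv
      refine ⟨g * v * g⁻¹, Finset.mem_filter.mpr ⟨hKconj g v hv.1, ?_⟩, by group⟩
      rw [smul_coe, QuotientGroup.eq]
      have := inv_mem hv.2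
      convert this using 1
      group
  have hcardK : K.card = n * k := by
    have h1 : ∀ t ∈ K, ((Finset.univ : Finset (G ⧸ F)).filter fun z => t • z = z).card = 1 := by
      intro t ht
      obtain ⟨z, hz⟩ := hexists t ht
      rw [Finset.card_eq_one]
      refine ⟨z, ?_⟩
      ext w
      simp only [Finset.mem_filter, Finset.mem_univ, true_and, Finset.mem_singleton]
      exact ⟨fun hw => hpoint t ht w z hw hz, fun hw => hw ▸ hz⟩
    have h2 : ∑ z : G ⧸ F, (K.filter fun t => t • z = z).card =
        ∑ t ∈ K, ((Finset.univ : Finset (G ⧸ F)).filter fun z => t • z = z).card := by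
      simp only [Finset.card_filter]
      exact Finset.sum_comm
    rw [Finset.sum_congr rfl h1, Finset.sum_congr rfl (fun z _ => hfib z), Finset.sum_const,
      Finset.sum_const, smul_eq_mul, smul_eq_mul, mul_one, Finset.card_univ] at h2
    rw [← h2]
  -- the conjugates moving `a`, by the image of `a`
  let K₁ : Finset G := K.filter fun t => t • a ≠ a
  let B : Finset (G ⧸ F) := Finset.univ.erase a
  let kb : G ⧸ F → ℕ := fun b => (K₁.filter fun t => t • a = b).card
  have hB : B.card = n - 1 := by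
    simp only [B, Finset.card_erase_of_mem (Finset.mem_univ a), Finset.card_univ]
    rfl
  have hKa : K.filter (fun t => t • a = a) = K₀ := Finset.filter_congr fun t _ => (hFa t).symm
  have hsum : ∑ b ∈ B, kb b = (n - 1) * k := by
    have h1 : K₁.card = ∑ b ∈ B, kb b :=
      Finset.card_eq_sum_card_fiberwise (fun t ht => by
        have := (Finset.mem_filter.mp ht).2
        simp [B, this])
    have h2 := Finset.card_filter_add_card_filter_not (s := K) (fun t => t • a = a)
    rw [hKa, ← hk, hcardK] at h2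
    rw [← h1, Nat.sub_one_mul]
    show (K.filter fun t => ¬ t • a = a).card = _
    omega
  let W : Finset (G × G) :=
    (K₁ ×ˢ K₁).filter fun p => p.1 ≠ p.2 ∧ p.1 • a = p.2 • a
  have hW : W.card + (n - 1) * k = ∑ b ∈ B, kb b ^ 2 := by
    have h1 : W.card = ∑ b ∈ B, (W.filter fun p => p.1 • a = b).card :=
      Finset.card_eq_sum_card_fiberwise (fun p hp => by
        have := (Finset.mem_filter.mp (Finset.mem_product.mp (Finset.mem_filter.mp hp).1).1).2
        simp [B, this])
    rw [h1, ← hsum, ← Finset.sum_add_distrib]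
    refine Finset.sum_congr rfl fun b _ => ?_
    have h2 : (W.filter fun p => p.1 • a = b) = (K₁.filter fun t => t • a = b).offDiag := by
      ext ⟨p, q⟩
      simp only [W, Finset.mem_filter, Finset.mem_product, Finset.mem_offDiag]
      constructor
      · rintro ⟨⟨⟨hp, hq⟩, hne, he⟩, hb⟩
        exact ⟨⟨hp, hb⟩, ⟨hq, he ▸ hb⟩, hne⟩
      · rintro ⟨⟨hp, hb⟩, ⟨hq, hb'⟩, hne⟩
        exact ⟨⟨⟨hp, hq⟩, hne, hb.trans hb'.symm⟩, hb⟩
    rw [h2, Finset.offDiag_card]
    show kb b * kb b - kb b + kb b = kb b ^ 2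
    rw [sq, Nat.sub_add_cancel (Nat.le_mul_self _)]
  have hcs : ((n - 1) * k) ^ 2 ≤ (n - 1) * ∑ b ∈ B, kb b ^ 2 := by
    have := sq_sum_le_card_mul_sum_sq (s := B) (f := kb)
    rwa [hsum, hB] at this
  -- pairs are counted through their product
  let P : G → G → Prop := fun x t => t * x * t⁻¹ = x⁻¹ ∧ t * x ∈ K
  let X : Finset G := (Finset.univ.filter fun x => x ∈ F).erase 1
  let m : G → ℕ := fun x => (K₀.filter fun t => P x t).card
  have hWX : W.card ≤ ∑ x ∈ X, (K₁.filter fun t => P x t).card := by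
    rw [← Finset.card_sigma]
    refine Finset.card_le_card_of_injOn (fun p => (⟨p.1 * p.2, p.1⟩ : Σ _ : G, G)) ?_ ?_
    · rintro ⟨p, q⟩ hp
      simp only [W, Finset.mem_coe, Finset.mem_filter, Finset.mem_product] at hp
      obtain ⟨⟨hp1, hq1⟩, hne, he⟩ := hp
      have hpK := (Finset.mem_filter.mp hp1).1
      have hqK := (Finset.mem_filter.mp hq1).1
      have hpp := hKinv p hpK
      have hqq := hKinv q hqK
      have hpi : p⁻¹ = p := inv_eq_of_mul_eq_one_right hpp
      have hqi : q⁻¹ = q := inv_eq_of_mul_eq_one_right hqq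
      simp only [Finset.mem_coe, Finset.mem_sigma, Finset.mem_filter]
      refine ⟨Finset.mem_erase.mpr ⟨fun h => hne ?_, Finset.mem_filter.mpr
        ⟨Finset.mem_univ _, ?_⟩⟩, hp1, ?_, ?_⟩
      · rw [← hqi]
        exact eq_inv_of_mul_eq_one_left h
      · rw [hFa, mul_smul, ← he, ← mul_smul, hpp, one_smul]
      · show p * (p * q) * p⁻¹ = (p * q)⁻¹
        rw [mul_inv_rev, hqi, hpi, ← mul_assoc p p q, hpp, one_mul]
      · show p * (p * q) ∈ K
        rw [← mul_assoc, hpp, one_mul]
        exact hqK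
    · rintro ⟨p, q⟩ _ ⟨p', q'⟩ _ h
      simp only [Sigma.mk.injEq, heq_eq_eq] at h
      obtain ⟨h1, rfl⟩ := h
      rw [mul_left_cancel h1]
  -- the conjugates moving `a` and inverting `x` are at most `(n - 2) m x`
  have hx : ∀ x ∈ X, (K₁.filter fun t => P x t).card ≤ (n - 2) * m x := by
    intro x hx
    obtain ⟨hx1, hxF⟩ := Finset.mem_erase.mp hx
    replace hxF : x ∈ F := (Finset.mem_filter.mp hxF).2
    have hPc : ∀ c : G, c * x = x * c → ∀ t, P x t → P x (c * t * c⁻¹) := by
      intro c hc t ht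
      have hcx : c * x * c⁻¹ = x := mul_inv_eq_iff_eq_mul.mpr hc
      refine ⟨?_, ?_⟩
      · calc c * t * c⁻¹ * x * (c * t * c⁻¹)⁻¹
            = c * t * c⁻¹ * (c * x * c⁻¹) * (c * t * c⁻¹)⁻¹ := by rw [hcx]
          _ = c * (t * x * t⁻¹) * c⁻¹ := by group
          _ = c * x⁻¹ * c⁻¹ := by rw [ht.1]
          _ = (c * x * c⁻¹)⁻¹ := by group
          _ = x⁻¹ := by rw [hcx]
      · have : c * t * c⁻¹ * x = c * (t * x) * c⁻¹ := by
          calc c * t * c⁻¹ * x = c * t * c⁻¹ * (c * x * c⁻¹) := by rw [hcx]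
            _ = c * (t * x) * c⁻¹ := by group
        rw [this]
        exact hKconj c _ ht.2
    -- every such conjugate is conjugate under `C(x)` into `F`
    have hconj : ∀ t ∈ K, P x t → ∃ c : G, c * x = x * c ∧ c * t * c⁻¹ ∈ F := by
      intro t htK ht
      let M : Subgroup G :=
        { carrier := {g | g * x * g⁻¹ = x ∨ g * x * g⁻¹ = x⁻¹}
          one_mem' := Or.inl (by simp)
          mul_mem' := by
            rintro p q hp hq
            have e : p * q * x * (p * q)⁻¹ = p * (q * x * q⁻¹) * p⁻¹ := by group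
            have ei : p * x⁻¹ * p⁻¹ = (p * x * p⁻¹)⁻¹ := by group
            rcases hp with hp | hp <;> rcases hq with hq | hq
            · exact Or.inl (by rw [e, hq, hp])
            · exact Or.inr (by rw [e, hq, ei, hp])
            · exact Or.inr (by rw [e, hq, hp])
            · exact Or.inl (by rw [e, hq, ei, hp, inv_inv])
          inv_mem' := by
            rintro p hp
            rcases hp with hp | hp
            · refine Or.inl ?_
              calc p⁻¹ * x * p⁻¹⁻¹ = p⁻¹ * (p * x * p⁻¹) * p := by rw [hp]; group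
                _ = x := by group
            · refine Or.inr ?_
              calc p⁻¹ * x * p⁻¹⁻¹ = p⁻¹ * (p * x * p⁻¹)⁻¹ * p := by rw [hp]; group
                _ = x⁻¹ := by group }
      have hM : ∀ g ∈ M, α g ∈ M := by
        intro g hg
        have e : α g * x * (α g)⁻¹ = α (g * x * g⁻¹) := by
          rw [map_mul, map_mul, map_inv, mem_fixSub.mp hxF]
        rcases hg with hg | hg
        · exact Or.inl (by rw [e, hg]; exact hxF)
        · exact Or.inr (by rw [e, hg, map_inv, mem_fixSub.mp hxF])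
      obtain ⟨c, hc, hcF⟩ := exists_conj_mem hC hcop hτ M hM (t := t) (Or.inr ht.1) ((hK t).mp htK)
      rcases hc with hc | hc
      · exact ⟨c, mul_inv_eq_iff_eq_mul.mp hc, hcF⟩
      · refine ⟨c * t, ?_, ?_⟩
        · refine mul_inv_eq_iff_eq_mul.mp ?_
          calc c * t * x * (c * t)⁻¹ = c * (t * x * t⁻¹) * c⁻¹ := by group
            _ = (c * x * c⁻¹)⁻¹ := by rw [ht.1]; group
            _ = x := by rw [hc, inv_inv]
        · have : c * t * t * (c * t)⁻¹ = c * t * c⁻¹ := by group
          rw [this]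
          exact hcF
    let T : Finset (G ⧸ F) := (Finset.univ.filter fun z => x • z = z).erase a
    have hT : T.card ≤ n - 2 := by
      have hne : ∃ z : G ⧸ F, x • z ≠ z := by
        by_contra hall
        push Not at hall
        apply hx1
        have hmem : x ∈ F.normalCore := fun b => by
          have h0 := hall (QuotientGroup.mk b⁻¹)
          rw [smul_coe, QuotientGroup.eq] at h0
          have := inv_mem h0
          convert this using 1
          group
        rw [hF, hcore] at hmem
        exact Subgroup.mem_bot.mp hmem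
      obtain ⟨z, hz⟩ := hne
      have hza : z ≠ a := fun h => hz (h ▸ (hFa x).mp hxF)
      have : T ⊆ (Finset.univ.erase a).erase z := by
        intro w hw
        simp only [T, Finset.mem_erase, Finset.mem_filter, Finset.mem_univ, true_and] at hw ⊢
        exact ⟨fun h => hz (h ▸ hw.2), hw.1, trivial⟩
      refine (Finset.card_le_card this).trans (le_of_eq ?_)
      rw [Finset.card_erase_of_mem (by simp [hza]), Finset.card_erase_of_mem (Finset.mem_univ _),
        Finset.card_univ]
      rfl
    have hsub : (K₁.filter fun t => P x t) ⊆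
        T.biUnion fun z => (K.filter fun t => P x t ∧ t • z = z) := by
      intro t ht
      obtain ⟨ht1, htP⟩ := Finset.mem_filter.mp ht
      obtain ⟨htK, hta⟩ := Finset.mem_filter.mp ht1
      obtain ⟨z, hz⟩ := hexists t htK
      obtain ⟨c, hc, hcF⟩ := hconj t htK htP
      have hcz : c⁻¹ • a = z := by
        refine hpoint t htK _ _ ?_ hz
        have := (hFa _).mp hcF
        rw [mul_smul, mul_smul] at this
        exact (eq_inv_smul_iff (g := c)).mpr this
      refine Finset.mem_biUnion.mpr ⟨z, ?_, Finset.mem_filter.mpr ⟨htK, htP, hz⟩⟩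
      refine Finset.mem_erase.mpr ⟨fun h => hta (h ▸ hz), Finset.mem_filter.mpr
        ⟨Finset.mem_univ _, ?_⟩⟩
      have hcomm : x * c⁻¹ = c⁻¹ * x := by
        calc x * c⁻¹ = c⁻¹ * (c * x) * c⁻¹ := by group
          _ = c⁻¹ * x := by rw [hc]; group
      rw [← hcz, ← mul_smul, hcomm, mul_smul, (hFa x).mp hxF]
    have hle : ∀ z ∈ T, (K.filter fun t => P x t ∧ t • z = z).card ≤ m x := by
      intro z _
      rcases (K.filter fun t => P x t ∧ t • z = z).eq_empty_or_nonempty with h | ⟨t, ht⟩
      · rw [h, Finset.card_empty]; exact Nat.zero_le _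
      obtain ⟨htK, htP, htz⟩ := Finset.mem_filter.mp ht
      obtain ⟨c, hc, hcF⟩ := hconj t htK htP
      have hcz : c • z = a := by
        have h1 := (hFa _).mp hcF
        rw [mul_smul, mul_smul] at h1
        have h2 : t • (c⁻¹ • a) = c⁻¹ • a := (eq_inv_smul_iff (g := c)).mpr h1
        rw [hpoint t htK z _ htz h2, smul_inv_smul]
      refine Finset.card_le_card_of_injOn (fun v => c * v * c⁻¹) ?_ ?_
      · intro v hv
        obtain ⟨hvK, hvP, hvz⟩ := Finset.mem_filter.mp (Finset.mem_coe.mp hv)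
        refine Finset.mem_coe.mpr (Finset.mem_filter.mpr ⟨Finset.mem_filter.mpr
          ⟨hKconj c v hvK, (hFa _).mpr ?_⟩, hPc c hc v hvP⟩)
        rw [mul_smul, mul_smul, ← hcz, inv_smul_smul, hvz]
      · intro v _ w _ h
        exact mul_left_cancel (mul_right_cancel h)
    calc (K₁.filter fun t => P x t).card ≤ _ := Finset.card_le_card hsub
      _ ≤ ∑ z ∈ T, (K.filter fun t => P x t ∧ t • z = z).card := Finset.card_biUnion_le
      _ ≤ ∑ z ∈ T, m x := Finset.sum_le_sum hle
      _ ≤ (n - 2) * m x := by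
          rw [Finset.sum_const, smul_eq_mul]
          exact Nat.mul_le_mul_right _ hT
  have hm : ∑ x ∈ X, m x ≤ k * k - k := by
    rw [← Finset.card_sigma, hk, ← Finset.offDiag_card]
    refine Finset.card_le_card_of_injOn (fun p : Σ _ : G, G => (p.2, p.2 * p.1)) ?_ ?_
    · rintro ⟨x, t⟩ hp
      simp only [Finset.mem_coe, Finset.mem_sigma, Finset.mem_filter] at hp
      obtain ⟨hxX, htK₀, -, htx⟩ := hp
      obtain ⟨hx1, hxF⟩ := Finset.mem_erase.mp hxX
      refine Finset.mem_coe.mpr (Finset.mem_offDiag.mpr ⟨htK₀, Finset.mem_filter.mpr ⟨htx, ?_⟩, ?_⟩)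
      · exact mul_mem (Finset.mem_filter.mp htK₀).2 (Finset.mem_filter.mp hxF).2
      · intro h
        exact hx1 (left_eq_mul.mp h)
    · rintro ⟨x, t⟩ _ ⟨x', t'⟩ _ h
      simp only [Prod.mk.injEq] at h
      obtain ⟨rfl, h2⟩ := h
      rw [mul_left_cancel h2]
  have hW2 : W.card ≤ (n - 2) * (k * k - k) := by
    refine hWX.trans ((Finset.sum_le_sum hx).trans ?_)
    rw [← Finset.mul_sum]
    exact Nat.mul_le_mul_left _ hm
  -- hence `k = 1`
  have hk1 : k ≤ 1 := by
    by_contra hk2
    obtain ⟨j, hj⟩ : ∃ j, n = j + 2 := ⟨n - 2, by omega⟩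
    obtain ⟨i, hi⟩ : ∃ i, k = i + 2 := ⟨k - 2, by omega⟩
    rw [hj, hi, show j + 2 - 1 = j + 1 by omega] at hW hcs
    rw [hj, hi, show j + 2 - 2 = j by omega,
      show (i + 2) * (i + 2) - (i + 2) = (i + 2) * (i + 1) by
        apply Nat.sub_eq_of_eq_add; ring] at hW2
    rw [← hW] at hcs
    have h3 : (j + 1) * (i + 2) ^ 2 ≤ W.card + (j + 1) * (i + 2) := by
      refine Nat.le_of_mul_le_mul_left ?_ (Nat.succ_pos j)
      calc (j + 1) * ((j + 1) * (i + 2) ^ 2) = ((j + 1) * (i + 2)) ^ 2 := by ring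
        _ ≤ _ := hcs
    nlinarith
  have huK₀ : u ∈ K₀ := Finset.mem_filter.mpr ⟨(hK u).mpr hu, huF⟩
  exact Finset.card_le_one.mp hk1 u huK₀ τ hτK₀

end CfsgLib.CoprimeInvolCentralizer
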